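import Mathlib
import Cfsg.Agent.Lib.Helper51.Zass.Defs

/-!
# Project ZASS (S0690), package [UI]

A group with a fixed-point-free linear action has at most one involution.
Also the basic facts (F0) on such actions.
-/

set_option autoImplicit false

namespace Cfsg.Agent.Lib.Helper62.Zass

open Cfsg.Agent.Lib.Helper51.Zass

universe u

/-- (F0) for `g ≠ 1`, `(ρ g - 1) * X = 0` forces `X = 0`. -/
theorem fpf_mul_eq_zero {p : ℕ} {V : Type u} [AddCommGroup V] [Module (ZMod p) V] {G : Type u}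
    [Group G] (ρ : G →* Module.End (ZMod p) V)
    (hρ : ∀ g : G, g ≠ 1 → ∀ v : V, ρ g v = v → v = 0) {g : G} (hg : g ≠ 1)
    {X : Module.End (ZMod p) V} (h : (ρ g - 1) * X = 0) : X = 0 := by
  ext v
  have h1 : ((ρ g - 1) * X) v = 0 := by rw [h]; rfl
  rw [Module.End.mul_apply, LinearMap.sub_apply, Module.End.one_apply, sub_eq_zero] at h1
  simpa using hρ g hg (X v) h1

/-- (F0) `ρ` is injective. -/
theorem fpf_eq_one {p : ℕ} {V : Type u} [AddCommGroup V] [Module (ZMod p) V] [Nontrivial V]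
    {G : Type u} [Group G] (ρ : G →* Module.End (ZMod p) V)
    (hρ : ∀ g : G, g ≠ 1 → ∀ v : V, ρ g v = v → v = 0) {g : G} (h : ρ g = 1) : g = 1 := by
  by_contra hg
  obtain ⟨v, hv⟩ := exists_ne (0 : V)
  exact hv (hρ g hg v (by rw [h]; rfl))

/-- (F0) an element of order 2 acts as `-1`. -/
theorem fpf_involution {p : ℕ} {V : Type u} [AddCommGroup V] [Module (ZMod p) V] {G : Type u}
    [Group G] (ρ : G →* Module.End (ZMod p) V)
    (hρ : ∀ g : G, g ≠ 1 → ∀ v : V, ρ g v = v → v = 0) {x : G} (hx : orderOf x = 2) :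
    ρ x = -1 := by
  have hx1 : x ≠ 1 := by
    rintro rfl
    rw [orderOf_one] at hx
    omega
  have hx2 : x ^ 2 = 1 := by rw [← hx]; exact pow_orderOf_eq_one x
  have h2 : ρ x ^ 2 = 1 := by rw [← map_pow, hx2, map_one]
  have h3 : (ρ x - 1) * (ρ x + 1) = 0 := by
    have e : (ρ x - 1) * (ρ x + 1) = ρ x ^ 2 - 1 := by noncomm_ring
    rw [e, h2, sub_self]
  exact eq_neg_of_add_eq_zero_left (fpf_mul_eq_zero ρ hρ hx1 h3)

/-- **[UI]** at most one involution. -/
theorem pkgUI : PkgUI.{u} := by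
  intro G _ _ hG s t hs ht
  obtain ⟨p, hp, V, _, _, _, _, ρ, hρ⟩ := hG
  have h1 : ρ (s * t) = 1 := by
    rw [map_mul, fpf_involution ρ hρ hs, fpf_involution ρ hρ ht, neg_mul_neg, one_mul]
  have h2 : s * t = 1 := fpf_eq_one ρ hρ h1
  have ht2 : t * t = 1 := by
    have h3 : t ^ 2 = 1 := by rw [← ht]; exact pow_orderOf_eq_one t
    rwa [sq] at h3
  calc s = s * (t * t) := by rw [ht2, mul_one]
    _ = (s * t) * t := by rw [mul_assoc]
    _ = t := by rw [h2, one_mul]

end Cfsg.Agent.Lib.Helper62.Zass
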