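import Mathlib
import Cfsg.Agent.Lib.Helper51.Zass.Defs
import Cfsg.Agent.Lib.Helper62.Zass.UI

/-!
# Project ZASS (S0690), package [COMM3]

In a group with a fixed-point-free linear action, commuting elements of order 3 generate the same
subgroup.
-/

set_option autoImplicit false

namespace Cfsg.Agent.Lib.Helper62.Zass

open Cfsg.Agent.Lib.Helper51.Zass

universe u

/-- (F0) an element of order 3 satisfies `g² + g + 1 = 0`. -/
theorem fpf_order_three {p : ℕ} {V : Type u} [AddCommGroup V] [Module (ZMod p) V] {G : Type u}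
    [Group G] (ρ : G →* Module.End (ZMod p) V)
    (hρ : ∀ g : G, g ≠ 1 → ∀ v : V, ρ g v = v → v = 0) {x : G} (hx : orderOf x = 3) :
    ρ x ^ 2 + ρ x + 1 = 0 := by
  have hx1 : x ≠ 1 := by
    rintro rfl
    rw [orderOf_one] at hx
    omega
  have hx3 : x ^ 3 = 1 := by rw [← hx]; exact pow_orderOf_eq_one x
  have h3 : ρ x ^ 3 = 1 := by rw [← map_pow, hx3, map_one]
  apply fpf_mul_eq_zero ρ hρ hx1
  have e : (ρ x - 1) * (ρ x ^ 2 + ρ x + 1) = ρ x ^ 3 - 1 := by noncomm_ring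
  rw [e, h3, sub_self]

/-- **[COMM3]** commuting elements of order 3 generate the same subgroup. -/
theorem pkgComm3 : PkgComm3.{u} := by
  intro G _ _ hG a b ha hb hab
  obtain ⟨p, hp, V, _, _, _, _, ρ, hρ⟩ := hG
  have hb3 : b ^ 3 = 1 := by rw [← hb]; exact pow_orderOf_eq_one b
  have hqA := fpf_order_three ρ hρ ha
  have hqB := fpf_order_three ρ hρ hb
  obtain ⟨A, hA⟩ : ∃ A : Module.End (ZMod p) V, A = ρ a := ⟨_, rfl⟩
  obtain ⟨B, hB⟩ : ∃ B : Module.End (ZMod p) V, B = ρ b := ⟨_, rfl⟩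
  rw [← hA] at hqA
  rw [← hB] at hqB
  have hB3 : B ^ 3 = 1 := by rw [hB, ← map_pow, hb3, map_one]
  have hcomm : Commute A B := by
    show A * B = B * A
    rw [hA, hB, ← map_mul, ← map_mul, hab]
  by_cases h1 : a * b ^ 2 = 1
  · left
    have h2 : (b ^ 2)⁻¹ = b := inv_eq_of_mul_eq_one_right (by rw [← pow_succ]; exact hb3)
    have h3 : a = (b ^ 2)⁻¹ := eq_inv_of_mul_eq_one_left h1
    rw [h3, h2]
  · right
    have e1 : A * B ^ 2 * (A * B) = A ^ 2 := by
      have hc2 : B ^ 2 * A = A * B ^ 2 := ((hcomm.pow_right 2).eq).symm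
      calc A * B ^ 2 * (A * B) = A * (B ^ 2 * A) * B := by noncomm_ring
        _ = A * (A * B ^ 2) * B := by rw [hc2]
        _ = A ^ 2 * B ^ 3 := by noncomm_ring
        _ = A ^ 2 := by rw [hB3, mul_one]
    have e2 : (A * B ^ 2 - 1) * (A * B - 1)
        = A * B ^ 2 * (A * B) - A * (B ^ 2 + B + 1) + (A + 1) := by noncomm_ring
    have h2 : (ρ (a * b ^ 2) - 1) * (ρ (a * b) - 1) = 0 := by
      rw [map_mul, map_mul, map_pow, ← hA, ← hB, e2, e1, hqB, mul_zero, sub_zero, ← add_assoc]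
      exact hqA
    have h3 := fpf_mul_eq_zero ρ hρ h1 h2
    have h4 : a * b = 1 := fpf_eq_one ρ hρ (sub_eq_zero.mp h3)
    exact eq_inv_of_mul_eq_one_right h4

end Cfsg.Agent.Lib.Helper62.Zass
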